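import Cfsg.Agent.H700.DM.Defs
import Cfsg.Agent.H686.CharKit

/-!
# S4907, DM31: glue for the rows of type `D` (helper733)

* `exists_faithful` : `SameDeg G H` and isomorphic central quotients: a degree of an irreducible character of `G` not
  trivial on the centre is a degree of an irreducible character of `H` not trivial on the centre;
* `iso_D` : the row, from DM28, DM29, DM30 as hypotheses.
-/

set_option autoImplicit false
set_option linter.unusedSectionVars false

namespace Cfsg.Agent.H733.DM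

open Cfsg Cfsg.Agent.H686.CharKit Cfsg.Agent.H700.DM
open Cfsg.Agent.Characters

universe u v w

/-- A degree of an irreducible character not trivial on the centre. -/
def FDeg (n : ℕ) (G : Type u) [Group G] : Prop :=
  ∃ χ : IrrCharacter G, charDegree (χ : G → ℂ) = n ∧ ∃ z ∈ Subgroup.center G, (χ : G → ℂ) z ≠ (χ : G → ℂ) 1

section

variable {G : Type u} {H : Type v} [Group G] [Group H]

theorem SameDeg.symm (h : SameDeg G H) : SameDeg H G := by
  obtain ⟨f, hf⟩ := h
  exact ⟨f.symm, fun χ => by rw [← hf (f.symm χ), Equiv.apply_symm_apply]⟩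

theorem SameDeg.trans {K : Type w} [Group K] (h : SameDeg G H) (h' : SameDeg H K) : SameDeg G K := by
  obtain ⟨f, hf⟩ := h
  obtain ⟨f', hf'⟩ := h'
  exact ⟨f.trans f', fun χ => by rw [Equiv.trans_apply, hf', hf]⟩

/-- transport of an irreducible character -/
def comapIrr (e : G ≃* H) (χ : IrrCharacter H) : IrrCharacter G :=
  ⟨(χ : H → ℂ) ∘ e.toMonoidHom, Core.isIrr_comp e.toMonoidHom e.surjective χ.2⟩

theorem comapIrr_apply (e : G ≃* H) (χ : IrrCharacter H) (g : G) :
    (comapIrr e χ : G → ℂ) g = (χ : H → ℂ) (e g) := rfl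

theorem charDegree_comapIrr (e : G ≃* H) (χ : IrrCharacter H) :
    charDegree (comapIrr e χ : G → ℂ) = charDegree (χ : H → ℂ) := by
  unfold charDegree
  rw [comapIrr_apply, map_one]

theorem sameDeg_of_equiv (e : G ≃* H) : SameDeg G H := by
  refine ⟨⟨comapIrr e.symm, comapIrr e, fun χ => ?_, fun χ => ?_⟩, fun χ => charDegree_comapIrr e.symm χ⟩
  · apply Subtype.ext
    funext g
    rw [comapIrr_apply, comapIrr_apply, MulEquiv.symm_apply_apply]
  · apply Subtype.ext
    funext g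
    rw [comapIrr_apply, comapIrr_apply, MulEquiv.apply_symm_apply]

theorem FDeg.of_equiv {n : ℕ} (e : G ≃* H) (h : FDeg n H) : FDeg n G := by
  obtain ⟨χ, hn, z, hz, hne⟩ := h
  refine ⟨comapIrr e χ, (charDegree_comapIrr e χ).trans hn, e.symm z, ?_, ?_⟩
  · rw [Subgroup.mem_center_iff] at hz ⊢
    intro g
    apply e.injective
    rw [map_mul, map_mul, MulEquiv.apply_symm_apply]
    exact hz (e g)
  · rw [comapIrr_apply, comapIrr_apply, MulEquiv.apply_symm_apply, map_one]
    exact hne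

end

section

variable {G : Type u} [Group G] [Finite G]

/-- the number of the irreducible characters of degree `n` -/
noncomputable def num (n : ℕ) (G : Type u) [Group G] : ℕ :=
  Nat.card {χ : IrrCharacter G // charDegree (χ : G → ℂ) = n}

theorem num_congr {H : Type v} [Group H] (h : SameDeg G H) (n : ℕ) : num n G = num n H := by
  obtain ⟨f, hf⟩ := h
  refine Nat.card_congr (Equiv.subtypeEquiv f fun χ => ?_)
  rw [hf]

theorem charDegree_infl (N : Subgroup G) [N.Normal] (ψ : IrrCharacter (G ⧸ N)) :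
    charDegree (infl N ψ : G → ℂ) = charDegree (ψ : G ⧸ N → ℂ) := by
  unfold charDegree
  rw [infl_apply]
  rfl

/-- characters with `N` in the kernel -/
theorem num_quot (N : Subgroup G) [N.Normal] (n : ℕ) :
    num n (G ⧸ N) = Nat.card {χ : IrrCharacter G // charDegree (χ : G → ℂ) = n ∧ N ≤ chKer χ} := by
  refine Nat.card_congr ?_
  refine ⟨fun ψ => ⟨infl N ψ.1, (charDegree_infl N ψ.1).trans ψ.2, le_chKer_infl N ψ.1⟩,
    fun χ => ⟨(inflEquiv N).symm ⟨χ.1, χ.2.2⟩, ?_⟩, fun ψ => ?_, fun χ => ?_⟩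
  · rw [← charDegree_infl]
    have h := (inflEquiv N).apply_symm_apply ⟨χ.1, χ.2.2⟩
    have h' : infl N ((inflEquiv N).symm ⟨χ.1, χ.2.2⟩) = χ.1 := congrArg Subtype.val h
    rw [h', χ.2.1]
  · apply Subtype.ext
    exact (inflEquiv N).symm_apply_apply ψ.1
  · have h := (inflEquiv N).apply_symm_apply ⟨χ.1, χ.2.2⟩
    have h' : infl N ((inflEquiv N).symm ⟨χ.1, χ.2.2⟩) = χ.1 := congrArg Subtype.val h
    exact Subtype.ext h'

theorem le_chKer_iff (χ : IrrCharacter G) :
    Subgroup.center G ≤ chKer χ ↔ ¬ ∃ z ∈ Subgroup.center G, (χ : G → ℂ) z ≠ (χ : G → ℂ) 1 := by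
  constructor
  · rintro h ⟨z, hz, hne⟩
    exact hne (h hz)
  · intro h z hz
    by_contra hc
    exact h ⟨z, hz, hc⟩

/-- The number of the irreducible characters of degree `n` not trivial on the centre. -/
theorem num_split (n : ℕ) : num n G = num n (G ⧸ Subgroup.center G) +
    Nat.card {χ : IrrCharacter G // charDegree (χ : G → ℂ) = n ∧ ∃ z ∈ Subgroup.center G, (χ : G → ℂ) z ≠ (χ : G → ℂ) 1} := by
  classical
  have : Finite (IrrCharacter G) := Core.finite_irr
  have : Fintype (IrrCharacter G) := Fintype.ofFinite _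
  rw [num_quot, num, Nat.card_eq_fintype_card, Nat.card_eq_fintype_card, Nat.card_eq_fintype_card,
    Fintype.card_subtype, Fintype.card_subtype, Fintype.card_subtype, ← Finset.card_union_of_disjoint]
  · congr 1
    ext χ
    simp only [Finset.mem_filter, Finset.mem_univ, true_and, Finset.mem_union, le_chKer_iff]
    tauto
  · rw [Finset.disjoint_left]
    intro χ h1 h2
    simp only [Finset.mem_filter, Finset.mem_univ, true_and, le_chKer_iff] at h1 h2
    exact h1.2 h2.2

end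

/-- **Faithful degrees.** -/
theorem exists_faithful {G : Type u} {H : Type v} [Group G] [Finite G] [Group H] [Finite H]
    (e : G ⧸ Subgroup.center G ≃* H ⧸ Subgroup.center H) (h : SameDeg G H) {n : ℕ} (hn : FDeg n G) : FDeg n H := by
  have h1 := num_split (G := G) n
  have h2 := num_split (G := H) n
  rw [num_congr h, num_congr (sameDeg_of_equiv e), h2] at h1
  have h3 := Nat.add_left_cancel h1
  have : Finite (IrrCharacter G) := Core.finite_irr
  have : Finite (IrrCharacter H) := Core.finite_irr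
  obtain ⟨χ, hχ⟩ := hn
  have h4 : 0 < Nat.card {χ : IrrCharacter G // charDegree (χ : G → ℂ) = n ∧
      ∃ z ∈ Subgroup.center G, (χ : G → ℂ) z ≠ (χ : G → ℂ) 1} :=
    Nat.card_pos_iff.2 ⟨⟨⟨χ, hχ⟩⟩, inferInstance⟩
  rw [← h3] at h4
  obtain ⟨⟨ψ, hψ⟩⟩ := (Nat.card_pos_iff.1 h4).1
  exact ⟨ψ, hψ⟩

section row

variable {F : Type} [Field F] [Fintype F] {m : ℕ}

/-- `Omega^+_{2m}(q)` -/
abbrev Om (F : Type) [Field F] (m : ℕ) : Type := ↥(Omega F (quadFormPlus m F))

/-- the bound of DM29 and DM30 -/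
def bd (q m : ℕ) : ℕ := (q ^ m - 1) * (q ^ (m - 1) + 1)

/-- one of the two groups is `Omega` and the other one is not: contradiction -/
theorem false_of_om {G : Type u} {H : Type v} [Group G] [Finite G] [Group H] [Finite H]
    (eG : G ⧸ Subgroup.center G ≃* POmega F (quadFormPlus m F)) (eH : H ⧸ Subgroup.center H ≃* POmega F (quadFormPlus m F))
    (h : SameDeg G H)
    (h29 : ∃ χ : IrrCharacter (Om F m), (∃ z ∈ Subgroup.center (Om F m), (χ : Om F m → ℂ) z ≠ (χ : Om F m → ℂ) 1) ∧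
      (Fintype.card F - 1) * charDegree (χ : Om F m → ℂ) ≤ bd (Fintype.card F) m)
    (h30 : ∀ χ : IrrCharacter H, (∃ z ∈ Subgroup.center H, (χ : H → ℂ) z ≠ (χ : H → ℂ) 1) →
      bd (Fintype.card F) m < (Fintype.card F - 1) * charDegree (χ : H → ℂ))
    (hG : Nonempty (G ≃* Om F m)) : False := by
  obtain ⟨f⟩ := hG
  obtain ⟨χ, hz, hle⟩ := h29
  obtain ⟨ψ, hψ, hz'⟩ := exists_faithful (eG.trans eH.symm) h (FDeg.of_equiv f ⟨χ, rfl, hz⟩)
  have h1 := h30 ψ hz'
  rw [hψ] at h1
  omega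

/-- **DM31: the rows of type `D`**, from DM28 (`h28`), DM29 (`h29`) and DM30 (`h30`, `h30'`). -/
theorem iso_D {G : Type u} {H : Type v} [Group G] [Finite G] [Group H] [Finite H] (hm : 4 ≤ m) (hev : Even m)
    (eG : G ⧸ Subgroup.center G ≃* POmega F (quadFormPlus m F)) (eH : H ⧸ Subgroup.center H ≃* POmega F (quadFormPlus m F))
    (h : SameDeg G H)
    (h28 : (m = 4 ∨ (¬ Nonempty (G ≃* Om F m) ∧ ¬ Nonempty (H ≃* Om F m))) → Nonempty (G ≃* H))
    (h29 : 6 ≤ m → ∃ χ : IrrCharacter (Om F m),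
      (∃ z ∈ Subgroup.center (Om F m), (χ : Om F m → ℂ) z ≠ (χ : Om F m → ℂ) 1) ∧
      (Fintype.card F - 1) * charDegree (χ : Om F m → ℂ) ≤ bd (Fintype.card F) m)
    (h30 : 6 ≤ m → ¬ Nonempty (H ≃* Om F m) → ∀ χ : IrrCharacter H,
      (∃ z ∈ Subgroup.center H, (χ : H → ℂ) z ≠ (χ : H → ℂ) 1) →
      bd (Fintype.card F) m < (Fintype.card F - 1) * charDegree (χ : H → ℂ))
    (h30' : 6 ≤ m → ¬ Nonempty (G ≃* Om F m) → ∀ χ : IrrCharacter G,
      (∃ z ∈ Subgroup.center G, (χ : G → ℂ) z ≠ (χ : G → ℂ) 1) →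
      bd (Fintype.card F) m < (Fintype.card F - 1) * charDegree (χ : G → ℂ)) : Nonempty (G ≃* H) := by
  by_cases h4 : m = 4
  · exact h28 (Or.inl h4)
  have h6 : 6 ≤ m := by
    obtain ⟨k, rfl⟩ := hev
    omega
  by_cases hG : Nonempty (G ≃* Om F m)
  · by_cases hH : Nonempty (H ≃* Om F m)
    · obtain ⟨f⟩ := hG
      obtain ⟨f'⟩ := hH
      exact ⟨f.trans f'.symm⟩
    · exact (false_of_om eG eH h (h29 h6) (h30 h6 hH) hG).elim
  · by_cases hH : Nonempty (H ≃* Om F m)
    · exact (false_of_om eH eG (SameDeg.symm h) (h29 h6) (h30' h6 hG) hH).elim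
    · exact h28 (Or.inr ⟨hG, hH⟩)

/-- **DM31 from DM28 and `no_same`** (`hno`, `hno'` : helper245's theorem `no_same` for the two groups). -/
theorem iso_D_of_no_same {G : Type u} {H : Type v} [Group G] [Group H] (hm : 4 ≤ m) (hev : Even m) (h : SameDeg G H)
    (h28 : (m = 4 ∨ (¬ Nonempty (G ≃* Om F m) ∧ ¬ Nonempty (H ≃* Om F m))) → Nonempty (G ≃* H))
    (hno : 6 ≤ m → G ≃* Om F m → ¬ Nonempty (H ≃* Om F m) → ¬ SameDeg G H)
    (hno' : 6 ≤ m → H ≃* Om F m → ¬ Nonempty (G ≃* Om F m) → ¬ SameDeg H G) : Nonempty (G ≃* H) := by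
  by_cases h4 : m = 4
  · exact h28 (Or.inl h4)
  have h6 : 6 ≤ m := by
    obtain ⟨k, rfl⟩ := hev
    omega
  by_cases hG : Nonempty (G ≃* Om F m)
  · by_cases hH : Nonempty (H ≃* Om F m)
    · obtain ⟨f⟩ := hG
      obtain ⟨f'⟩ := hH
      exact ⟨f.trans f'.symm⟩
    · obtain ⟨f⟩ := hG
      exact (hno h6 f hH h).elim
  · by_cases hH : Nonempty (H ≃* Om F m)
    · obtain ⟨f⟩ := hH
      exact (hno' h6 f hG (SameDeg.symm h)).elim
    · exact h28 (Or.inr ⟨hG, hH⟩)

end row

end Cfsg.Agent.H733.DM
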